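import Mathlib

set_option autoImplicit false

namespace Cfsg.Agent.Lib.Helper10.PermNum

theorem amgm_step (k : ℕ) (x y : ℝ) (hx : 0 ≤ x) (hy : 0 ≤ y) :
    ((k:ℝ)+1)^(k+1) * x^k * y ≤ (k:ℝ)^k * (x+y)^(k+1) := by
  rcases Nat.eq_zero_or_pos k with rfl | hk
  · simp; linarith
  rcases hx.eq_or_lt with rfl | hxpos
  · have : (0:ℝ)^k = 0 := zero_pow (by omega)
    rw [this]; simp; positivity
  have hkpos : (0:ℝ) < k := by exact_mod_cast hk
  obtain ⟨a, ha⟩ : ∃ a : ℝ, a = ((k:ℝ) * y - x) / (((k:ℝ)+1) * x) := ⟨_, rfl⟩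
  have ha2 : -2 ≤ a := by
    rw [ha, le_div_iff₀ (by positivity)]
    nlinarith [mul_nonneg hkpos.le hy, mul_pos hkpos hxpos]
  have hb := one_add_mul_le_pow ha2 (k+1)
  have h1 : 1 + ((k+1 : ℕ) : ℝ) * a = (k:ℝ) * y / x := by
    rw [ha]; push_cast; field_simp; ring
  have h2 : 1 + a = (k:ℝ) * (x + y) / (((k:ℝ)+1) * x) := by
    rw [ha]; field_simp; ring
  rw [h1, h2, div_pow, div_le_div_iff₀ hxpos (by positivity)] at hb
  have h3 : ((k:ℝ) * x) * (((k:ℝ)+1)^(k+1) * x^k * y) ≤ ((k:ℝ) * x) * ((k:ℝ)^k * (x+y)^(k+1)) := by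
    calc ((k:ℝ) * x) * (((k:ℝ)+1)^(k+1) * x^k * y) = (k:ℝ) * y * (((k:ℝ)+1) * x)^(k+1) := by
          rw [mul_pow, pow_succ x k]; ring
      _ ≤ ((k:ℝ) * (x + y))^(k+1) * x := hb
      _ = ((k:ℝ) * x) * ((k:ℝ)^k * (x+y)^(k+1)) := by
          rw [mul_pow, pow_succ (k:ℝ) k]; ring
  exact le_of_mul_le_mul_left h3 (by positivity)

theorem step (P x y k : ℕ) (h : P * k ^ k ≤ x ^ k) :
    P * y * (k+1) ^ (k+1) ≤ (x + y) ^ (k+1) := by
  rcases Nat.eq_zero_or_pos k with rfl | hk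
  · simp at h ⊢
    calc P * y ≤ 1 * y := Nat.mul_le_mul_right _ h
      _ ≤ x + y := by omega
  have key : (k+1)^(k+1) * x^k * y ≤ k^k * (x+y)^(k+1) := by
    have := amgm_step k (x:ℝ) (y:ℝ) (by positivity) (by positivity)
    exact_mod_cast this
  have hkk : 0 < k ^ k := by positivity
  apply Nat.le_of_mul_le_mul_left _ hkk
  calc k ^ k * (P * y * (k+1)^(k+1)) = (P * k ^ k) * (y * (k+1)^(k+1)) := by ring
    _ ≤ x ^ k * (y * (k+1)^(k+1)) := Nat.mul_le_mul_right _ h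
    _ = (k+1)^(k+1) * x^k * y := by ring
    _ ≤ k ^ k * (x + y)^(k+1) := key

theorem steps (p : ℕ) (hp : 2 ≤ p) (P x k' : ℕ) (h : P * k' ^ k' ≤ x ^ k') :
    ∀ j : ℕ, 1 ≤ j → ∀ a : ℕ, j ≤ a → P * p ^ a * (k' + j) ^ (k' + j) ≤ (x + p ^ a) ^ (k' + j) := by
  intro j hj
  induction j, hj using Nat.le_induction with
  | base =>
    intro a _
    exact step P x (p ^ a) k' h
  | succ j hj ih =>
    intro a ha
    obtain ⟨a', rfl⟩ : ∃ a', a = a' + 1 := ⟨a - 1, by omega⟩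
    have h1 := ih a' (by omega)
    have h2 := step (P * p ^ a') (x + p ^ a') p (k' + j) h1
    have h3 : p ^ a' + p ≤ p ^ (a' + 1) := by
      have : p ≤ p ^ a' := by
        calc p = p ^ 1 := (pow_one p).symm
          _ ≤ p ^ a' := Nat.pow_le_pow_right (by omega) (by omega)
      rw [pow_succ]
      have h5 : p ^ a' * 2 ≤ p ^ a' * p := Nat.mul_le_mul_left _ hp
      omega
    calc P * p ^ (a' + 1) * (k' + (j + 1)) ^ (k' + (j + 1))
        = P * p ^ a' * p * (k' + j + 1) ^ (k' + j + 1) := by rw [pow_succ]; ring_nf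
      _ ≤ (x + p ^ a' + p) ^ (k' + j + 1) := h2
      _ ≤ (x + p ^ (a' + 1)) ^ (k' + j + 1) := Nat.pow_le_pow_left (by omega) _
      _ = (x + p ^ (a' + 1)) ^ (k' + (j + 1)) := by ring_nf

end Cfsg.Agent.Lib.Helper10.PermNum
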