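import Mathlib
import Cfsg.Agent.Lib.Helper10.PermNum

set_option autoImplicit false

namespace Cfsg.Agent.Lib.Helper10.PermAb

open Cfsg.Agent.Lib.Helper10.PermNum

variable {G : Type*} [Group G] [Finite G] {Ω : Type*} [MulAction G Ω]

/-- the elements of `A` whose `p`-th power is trivial -/
def om (p : ℕ) (A : Subgroup G) : Set G := {x | x ∈ A ∧ x ^ p = 1}

theorem om_card (p : ℕ) [Fact p.Prime] (A : Subgroup G) (hA : IsPGroup p A)
    (hcomm : ∀ a ∈ A, ∀ b ∈ A, a * b = b * a) : ∃ k, (om p A).ncard = p ^ k := by
  let E : Subgroup G :=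
    { carrier := om p A
      mul_mem' := by
        intro x y hx hy
        refine ⟨A.mul_mem hx.1 hy.1, ?_⟩
        have hc : Commute x y := hcomm x hx.1 y hy.1
        rw [hc.mul_pow, hx.2, hy.2, one_mul]
      one_mem' := ⟨A.one_mem, one_pow p⟩
      inv_mem' := by
        intro x hx
        refine ⟨A.inv_mem hx.1, ?_⟩
        rw [inv_pow, hx.2, inv_one] }
  have hE : IsPGroup p E := hA.to_le (fun x hx => hx.1)
  obtain ⟨k, hk⟩ := IsPGroup.iff_card.mp hE
  refine ⟨k, ?_⟩
  rw [← hk]
  exact (Nat.card_coe_set_eq (om p A)).symm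

theorem main (p : ℕ) [hp : Fact p.Prime] : ∀ (N : ℕ) (A : Subgroup G), Nat.card A ≤ N →
    IsPGroup p A → (∀ a ∈ A, ∀ b ∈ A, a * b = b * a) → ∀ (S : Set Ω), S.Finite →
    (∀ g ∈ A, ∀ x ∈ S, g • x ∈ S) → (∀ g ∈ A, (∀ x ∈ S, g • x = x) → g = 1) →
    ∀ k : ℕ, (om p A).ncard = p ^ k → Nat.card A * k ^ k ≤ S.ncard ^ k := by
  classical
  intro N
  induction N with
  | zero =>
    intro A hN
    have : 0 < Nat.card A := Nat.card_pos
    omega
  | succ N ih =>
    intro A hN hA hcomm S hSfin hSinv hfaith k hk
    have hfinE : (om p A).Finite := Set.toFinite _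
    have h1E : (1 : G) ∈ om p A := ⟨A.one_mem, one_pow p⟩
    rcases Nat.eq_zero_or_pos k with rfl | hkpos
    · have hA1 : Nat.card A = 1 := by
        rcases hA.card_eq_or_dvd with h | h
        · exact h
        · exfalso
          obtain ⟨x, hx⟩ := exists_prime_orderOf_dvd_card' p h
          have hxE : (x : G) ∈ om p A := ⟨x.2, by
            have := pow_orderOf_eq_one x
            rw [hx] at this
            simpa using congrArg Subtype.val this⟩
          have hx1 : (x : G) ≠ 1 := by
            intro h1
            have : x = 1 := Subtype.ext h1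
            rw [this, orderOf_one] at hx
            exact hp.out.one_lt.ne hx
          rw [pow_zero, Set.ncard_eq_one] at hk
          obtain ⟨a, ha⟩ := hk
          have e1 : (1:G) = a := by rw [ha] at h1E; exact h1E
          have e2 : (x:G) = a := by rw [ha] at hxE; exact hxE
          exact hx1 (e2.trans e1.symm)
      rw [hA1]; simp
    · have hp2 : 2 ≤ p := hp.out.two_le
      have h2 : 1 < (om p A).ncard := by
        rw [hk]; exact Nat.one_lt_pow (by omega) (by omega)
      obtain ⟨e, heE, he1⟩ := Set.exists_ne_of_one_lt_ncard h2 1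
      have heA : e ∈ A := heE.1
      have hne : ¬ ∀ x ∈ S, e • x = x := fun h => he1 (hfaith e heA h)
      push Not at hne
      obtain ⟨ω, hωS, hω⟩ := hne
      obtain ⟨K, hKdef⟩ : ∃ K : Subgroup G, K = A ⊓ MulAction.stabilizer G ω := ⟨_, rfl⟩
      obtain ⟨O, hOdef⟩ : ∃ O : Set Ω, O = {x | ∃ a ∈ A, a • ω = x} := ⟨_, rfl⟩
      have hKA : K ≤ A := by rw [hKdef]; exact inf_le_left
      have hKst : ∀ g ∈ K, g • ω = ω := by
        intro g hg; rw [hKdef] at hg; exact hg.2
      have hOS : O ⊆ S := by
        intro x hx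
        rw [hOdef] at hx
        obtain ⟨a, ha, rfl⟩ := hx
        exact hSinv a ha ω hωS
      have hOfin : O.Finite := hSfin.subset hOS
      have hωO : ω ∈ O := by rw [hOdef]; exact ⟨1, A.one_mem, one_smul _ _⟩
      have heO : e • ω ∈ O := by rw [hOdef]; exact ⟨e, heA, rfl⟩
      have hO2 : 1 < O.ncard := (Set.one_lt_ncard hOfin).mpr ⟨_, heO, _, hωO, hω⟩
      -- orbit-stabilizer
      have hstab : MulAction.stabilizer (↥A) ω = (MulAction.stabilizer G ω).subgroupOf A := by
        ext ⟨a, ha⟩
        rw [Subgroup.mem_subgroupOf, MulAction.mem_stabilizer_iff, MulAction.mem_stabilizer_iff]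
        rfl
      have horb : MulAction.orbit (↥A) ω = O := by
        ext x
        rw [hOdef, MulAction.mem_orbit_iff]
        constructor
        · rintro ⟨⟨a, ha⟩, h⟩; exact ⟨a, ha, h⟩
        · rintro ⟨a, ha, h⟩; exact ⟨⟨a, ha⟩, h⟩
      have hidx := MulAction.index_stabilizer (↥A) ω
      rw [horb] at hidx
      have hcm := Subgroup.card_mul_index (MulAction.stabilizer (↥A) ω)
      have hcK : Nat.card (MulAction.stabilizer (↥A) ω) = Nat.card K := by
        have h3 := Subgroup.inf_subgroupOf_left (MulAction.stabilizer G ω) A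
        rw [hstab, ← h3, hKdef]
        exact Nat.card_congr (Subgroup.subgroupOfEquivOfLe inf_le_left).toEquiv
      have hcard : Nat.card K * O.ncard = Nat.card A := by rw [← hcK, ← hidx]; exact hcm
      obtain ⟨a, ha⟩ := hA.index (MulAction.stabilizer (↥A) ω)
      rw [hidx] at ha
      -- properties of K
      have hKN : Nat.card K ≤ N := by
        have : Nat.card K * 2 ≤ Nat.card K * O.ncard := Nat.mul_le_mul_left _ hO2
        omega
      have hKp : IsPGroup p K := hA.to_le hKA
      have hKcomm : ∀ a ∈ K, ∀ b ∈ K, a * b = b * a := fun a ha b hb => hcomm a (hKA ha) b (hKA hb)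
      have hS'fin : (S \ O).Finite := hSfin.subset Set.sdiff_subset
      have hS'inv : ∀ g ∈ K, ∀ x ∈ S \ O, g • x ∈ S \ O := by
        intro g hg x hx
        refine ⟨hSinv g (hKA hg) x hx.1, ?_⟩
        intro hgx
        apply hx.2
        rw [hOdef] at hgx ⊢
        obtain ⟨b, hb, hbx⟩ := hgx
        refine ⟨g⁻¹ * b, A.mul_mem (A.inv_mem (hKA hg)) hb, ?_⟩
        rw [mul_smul, hbx, inv_smul_smul]
      have hS'faith : ∀ g ∈ K, (∀ x ∈ S \ O, g • x = x) → g = 1 := by
        intro g hg h
        apply hfaith g (hKA hg)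
        intro x hxS
        by_cases hxO : x ∈ O
        · rw [hOdef] at hxO
          obtain ⟨b, hb, rfl⟩ := hxO
          rw [← mul_smul, hcomm g (hKA hg) b hb, mul_smul, hKst g hg]
        · exact h x ⟨hxS, hxO⟩
      obtain ⟨k', hk'⟩ := om_card p K hKp hKcomm
      have IH := ih K hKN hKp hKcomm (S \ O) hS'fin hS'inv hS'faith k' hk'
      -- k' < k
      have hsub : om p K ⊂ om p A := by
        refine ⟨fun x hx => ⟨hKA hx.1, hx.2⟩, ?_⟩
        intro h
        exact hω (hKst e (h heE).1)
      have hlt : k' < k := by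
        have := Set.ncard_lt_ncard hsub hfinE
        rw [hk, hk'] at this
        exact (Nat.pow_lt_pow_iff_right (by omega)).mp this
      -- k ≤ k' + a
      have hfinEK : (om p K).Finite := Set.toFinite _
      have hle : k ≤ k' + a := by
        have hcount : hfinE.toFinset.card ≤ (om p K).ncard * (hfinE.toFinset.image (fun x : G => x • ω)).card := by
          apply Finset.card_le_mul_card_image
          intro b hb
          rw [Finset.mem_image] at hb
          obtain ⟨x₀, hx₀, rfl⟩ := hb
          rw [Set.Finite.mem_toFinset] at hx₀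
          rw [Set.ncard_eq_toFinset_card _ hfinEK]
          apply Finset.card_le_card_of_injOn (fun x => x₀⁻¹ * x)
          · intro x hx
            rw [Finset.coe_filter] at hx
            obtain ⟨hxE, hxω⟩ := hx
            rw [Set.Finite.mem_toFinset] at hxE
            simp only [Finset.mem_coe, Set.Finite.mem_toFinset]
            refine ⟨?_, ?_⟩
            · rw [hKdef]
              refine ⟨A.mul_mem (A.inv_mem hx₀.1) hxE.1, ?_⟩
              show (x₀⁻¹ * x) • ω = ω
              rw [mul_smul, hxω, inv_smul_smul]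
            · have hc : Commute x₀⁻¹ x := hcomm _ (A.inv_mem hx₀.1) _ hxE.1
              rw [hc.mul_pow, inv_pow, hx₀.2, hxE.2, inv_one, one_mul]
          · intro x _ y _ hxy
            exact mul_left_cancel hxy
        have himg : (hfinE.toFinset.image (fun x : G => x • ω)).card ≤ O.ncard := by
          rw [← Set.ncard_coe_finset]
          apply Set.ncard_le_ncard _ hOfin
          intro y hy
          rw [Finset.mem_coe, Finset.mem_image] at hy
          obtain ⟨x, hx, rfl⟩ := hy
          rw [Set.Finite.mem_toFinset] at hx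
          rw [hOdef]
          exact ⟨x, hx.1, rfl⟩
        have h5 : p ^ k ≤ p ^ (k' + a) := by
          rw [pow_add, ← hk, ← hk', ← ha, Set.ncard_eq_toFinset_card _ hfinE]
          exact hcount.trans (Nat.mul_le_mul_left _ himg)
        exact (Nat.pow_le_pow_iff_right (by omega)).mp h5
      have hfinal := steps p hp2 (Nat.card K) (S \ O).ncard k' IH (k - k') (by omega) a (by omega)
      have hkk : k' + (k - k') = k := by omega
      rw [hkk] at hfinal
      have hSO : (S \ O).ncard + O.ncard = S.ncard := Set.ncard_sdiff_add_ncard_of_subset hOS hSfin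
      rw [← ha, hSO, hcard] at hfinal
      exact hfinal

end Cfsg.Agent.Lib.Helper10.PermAb
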